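import Cfsg.Agent.Clifford.Gallagher
import Cfsg.Agent.Clifford.Extend

/-! Fully ramified characters (DeMeyer–Janusz, Howlett–Isaacs). -/

set_option autoImplicit false

namespace CF.CType

open Cfsg CF.Char CF.Clifford Subgroup

variable {Z H L : Type*} [Group Z] [Group H] [Group L]

structure FR (E : NormalEmb Z H) (χ : H → ℂ) (θ : Z → ℂ) (e : ℕ) : Prop where
  irr : IsIrrCharacter H χ
  irrθ : IsIrrCharacter Z θ
  res : (fun n => χ (E.ι n)) = (e : ℂ) • θ
  sq : e ^ 2 = E.index

theorem index_mul (E : NormalEmb Z H) (E' : NormalEmb Z L) [Finite H] (f : L →* H)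
    (hf : Function.Injective f) : E'.index * f.range.index = E.index := by
  have : Finite Z := Finite.of_injective _ E.inj
  have h1 := E.card_mul_index
  have h2 := E'.card_mul_index
  have h3 := f.range.card_mul_index
  rw [← Nat.card_congr (MonoidHom.ofInjective hf).toEquiv, ← h2, ← h1, mul_assoc] at h3
  exact Nat.eq_of_mul_eq_mul_left Nat.card_pos h3

namespace FR

variable [Fintype Z] [Fintype H] [Fintype L] {E : NormalEmb Z H} {χ : H → ℂ} {θ : Z → ℂ} {e : ℕ}
  (h : FR E χ θ e)
include h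

theorem pos : 0 < e := Nat.pos_of_ne_zero fun h0 => by
  have := h.sq; have := E.index_pos; simp_all

theorem inv : E.Invariant θ :=
  E.invariant_of_res_eq_smul (irr_isClassFunction h.irr) (by exact_mod_cast h.pos.ne') h.res

theorem vanish (g : H) (hg : g ∉ E.ι.range) : χ g = 0 :=
  (E.fullyRamified_iff_vanish h.irr h.irrθ h.res).1 h.sq g hg

theorem uniq {ψ : H → ℂ} (h1 : IsIrrCharacter H ψ) (h2 : classInner (fun n => ψ (E.ι n)) θ ≠ 0) :
    ψ = χ := (E.fullyRamified_iff_unique h.irr h.irrθ h.res).1 h.sq ψ h1 h2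

variable (E' : NormalEmb Z L) (f : L →* H) (hf : Function.Injective f)
  (hι : ∀ n, f (E'.ι n) = E.ι n)
include hι

omit [Fintype L] in
theorem inv' : E'.Invariant θ := fun g n => by rw [E.c_eq_of_comp E' f hι]; exact h.inv _ _

include hf

theorem res_eq : (E'.index : ℂ) • (fun x => χ (f x)) = (e : ℂ) • ind E'.ι θ := by
  funext x
  by_cases hx : x ∈ E'.ι.range
  · obtain ⟨n, rfl⟩ := hx
    have h1 := congrFun (E'.res_ind_of_invariant (h.inv' E' f hι)) n
    have h2 := congrFun h.res n
    simp only [Pi.smul_apply, smul_eq_mul, hι] at *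
    rw [h1, h2]; ring
  · simp only [Pi.smul_apply, smul_eq_mul]
    rw [E'.ind_apply_of_not_mem θ hx, h.vanish, mul_zero, mul_zero]
    rintro ⟨n, hn⟩
    exact hx ⟨n, hf ((hι n).trans hn)⟩

theorem inner_eq {ψ : L → ℂ} (h1 : IsCharacter L ψ) :
    E'.index * classInner (fun x => χ (f x)) ψ = e * classInner (fun n => ψ (E'.ι n)) θ := by
  rw [← CF.Char.inner_smul_left, h.res_eq E' f hf hι, CF.Char.inner_smul_left,
    inner_ind_left _ _ (char_isClassFunction h1),
    inner_char_comm (irr_isCharacter h.irrθ) (char_comp h1 _)]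

theorem over_iff {ψ : L → ℂ} (h1 : IsCharacter L ψ) :
    classInner (fun x => χ (f x)) ψ ≠ 0 ↔ classInner (fun n => ψ (E'.ι n)) θ ≠ 0 := by
  have h2 := h.inner_eq E' f hf hι h1
  have h3 : (E'.index : ℂ) ≠ 0 := by exact_mod_cast E'.index_pos.ne'
  have h4 : (e : ℂ) ≠ 0 := by exact_mod_cast h.pos.ne'
  exact ⟨fun h5 h6 => mul_ne_zero h3 h5 (by rw [h2, h6, mul_zero]),
    fun h5 h6 => mul_ne_zero h4 h5 (by rw [← h2, h6, mul_zero])⟩

theorem exists_mult {ψ : L → ℂ} (h1 : IsIrrCharacter L ψ)
    (h2 : classInner (fun n => ψ (E'.ι n)) θ ≠ 0) :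
    ∃ a m : ℕ, 0 < a ∧ (fun n => ψ (E'.ι n)) = (a : ℂ) • θ ∧ ψ 1 = a * θ 1 ∧
      classInner (fun x => χ (f x)) ψ = m ∧ E'.index * m = e * a := by
  obtain ⟨a, ha, h3⟩ := E'.exists_nat_res_eq_of_invariant h1 h.irrθ (h.inv' E' f hι) h2
  obtain ⟨m, hm⟩ := inner_char_eq_nat (char_comp (irr_isCharacter h.irr) f) (irr_isCharacter h1)
  refine ⟨a, m, ha, h3, by simpa using congrFun h3 1, hm, ?_⟩
  have := h.inner_eq E' f hf hι (irr_isCharacter h1)
  rw [hm, h3, CF.Char.inner_smul_left, inner_irr_self h.irrθ, mul_one] at this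
  exact_mod_cast this

theorem ind_eq {ψ : L → ℂ} (h1 : IsIrrCharacter L ψ)
    (h2 : classInner (fun n => ψ (E'.ι n)) θ ≠ 0) : ∃ c : ℂ, ind f ψ = c • χ := by
  refine ⟨_, eq_smul_of_unique_constituent (ind_isClassFunction f ψ) h.irr fun φ h3 h4 =>
    h.uniq h3 ?_⟩
  rw [inner_ind_left _ _ (irr_isClassFunction h3), inner_irr_ne_zero_comm] at h4
  simpa only [hι] using inner_comp_ne_zero_of_constituent E'.ι (char_comp (irr_isCharacter h3) f) h1
    (irr_isCharacter h.irrθ) h4 h2

theorem hall (hc : E'.index.Coprime f.range.index) : ∃ ξ e', FR E' ξ θ e' := by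
  obtain ⟨ξ, h1, h2⟩ := exists_irr_over E'.ι E'.inj h.irrθ
  obtain ⟨a, m, ha, h3, -, -, h4⟩ := h.exists_mult E' f hf hι h1 h2
  refine ⟨ξ, a, h1, h.irrθ, h3, le_antisymm (E'.sq_le_index h1 h.irrθ h3) ?_⟩
  have h5 : E'.index * m ^ 2 = f.range.index * a ^ 2 := by
    refine Nat.eq_of_mul_eq_mul_left E'.index_pos ?_
    rw [← mul_assoc, ← mul_assoc, index_mul E E' f hf, ← h.sq, ← mul_pow, ← h4]; ring
  exact Nat.le_of_dvd (by positivity) (hc.dvd_of_dvd_mul_left ⟨_, h5.symm⟩)

end FR

theorem FR.centralizer_ne [Finite H] {Z : Subgroup H} [Z.Normal] {χ : H → ℂ} {θ : Z → ℂ} {e : ℕ}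
    (h : FR (NormalEmb.sub Z) χ θ e) (hZ : Z ≠ ⊤) (C : Subgroup (H ⧸ Z)) (hC : IsCyclic C) :
    centralizer (C : Set (H ⧸ Z)) ≠ C := by
  classical
  intro hc
  have := Fintype.ofFinite H
  obtain ⟨c, hc'⟩ := hC.exists_generator
  have hc1 : (c : H ⧸ Z) ≠ 1 := fun h1 => hZ <| eq_top_iff.2 fun x _ => by
    have h2 : ∀ y ∈ C, y = 1 := fun y hy => by
      obtain ⟨k, hk⟩ := hc' ⟨y, hy⟩
      simpa [h1] using (congrArg Subtype.val hk).symm
    exact (QuotientGroup.eq_one_iff x).1 (h2 _ (hc ▸ fun y hy => by simp [h2 y hy]))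
  set L := C.comap (QuotientGroup.mk' Z)
  have hL : ∀ n, (NormalEmb.sub Z).ι n ∈ L := fun n => by
    simp [L, mem_comap, (QuotientGroup.eq_one_iff (n : H)).2 n.2]
  set E' := (NormalEmb.sub Z).restrict L hL
  let π : L →* C := ((QuotientGroup.mk' Z).comp L.subtype).codRestrict C fun x => x.2
  have hπ : Function.Surjective π := fun ⟨y, hy⟩ => by
    obtain ⟨x, rfl⟩ := QuotientGroup.mk'_surjective Z y
    exact ⟨⟨x, hy⟩, rfl⟩
  have hπ1 : ∀ n, π (E'.ι n) = 1 := fun n => Subtype.ext ((QuotientGroup.eq_one_iff (n : H)).2 n.2)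
  have hker : π.ker = E'.ι.range := by
    ext x
    exact ⟨fun hx => ⟨⟨x, (QuotientGroup.eq_one_iff (x : H)).1 (congrArg Subtype.val hx)⟩, rfl⟩,
      fun ⟨n, hn⟩ => hn ▸ hπ1 n⟩
  obtain ⟨η, hη, hext⟩ := E'.exists_ext_of_isCyclic h.irrθ (h.inv' E' L.subtype fun _ => rfl)
    (isCyclic_of_surjective ((QuotientGroup.quotientKerEquivOfSurjective π hπ).symm.trans
      (QuotientGroup.quotientMulEquivOfEq hker)) (MulEquiv.surjective _))
  have hcomm : ∀ a b : C, a * b = b * a := fun a b => (hC.commGroup.mul_comm a b :)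
  set δ : C → ℂ := fun y => if y = c then 1 else 0
  have hδ := classFun_eq_sum (classFun_of_comm hcomm δ)
  have hF : (fun x => δ (π x)) * η =
      ∑ γ : IrrCharacter C, classInner δ γ • ((fun x => (γ : C → ℂ) (π x)) * η) := by
    funext x
    conv_lhs => rw [hδ]
    simp [Finset.sum_mul, mul_assoc]
  have hγ := fun γ : IrrCharacter C => irr_comp_of_surjective γ.2 π hπ
  have h1 : ∀ x, x ∉ Z → indFun L ((fun x => δ (π x)) * η) x = 0 := fun x hx => by
    rw [hF, indFun_sum, Finset.sum_apply]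
    refine Finset.sum_eq_zero fun γ _ => ?_
    obtain ⟨k, hk⟩ := h.ind_eq E' L.subtype L.subtype_injective (fun _ => rfl)
      (E'.irr_mul_ext h.irrθ (irr_isCharacter hη) hext (hγ γ) fun n => by rw [hπ1, map_one]) (by
        simp only [Pi.mul_apply, hπ1, hext]
        rw [show (fun n => (γ : C → ℂ) 1 * θ n) = (γ : C → ℂ) 1 • θ from rfl,
          CF.Char.inner_smul_left, inner_irr_self h.irrθ, mul_one]
        exact irr_one_ne_zero γ.2)
    rw [indFun_smul, ← ind_subtype, hk]
    simp [h.vanish x (by simpa using hx)]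
  have h2 : (fun x => δ (π x)) * η = 0 := by
    funext x
    by_cases hx : π x = c
    swap; · simp [δ, hx]
    have h3 := h1 x fun hx' => hc1 (by rw [← hx]; exact (QuotientGroup.eq_one_iff (x : H)).2 hx')
    rw [indFun_apply', mul_eq_zero_iff_left (inv_ne_zero card_ne_zero_complex),
      ← Finset.sum_subset (Finset.subset_univ (Finset.univ.filter (· ∈ L))),
      Finset.sum_congr rfl (g := fun _ => ((fun x => δ (π x)) * η) x), Finset.sum_const,
      smul_eq_zero_iff_right (Finset.card_ne_zero.2 ⟨1, by simp⟩)] at h3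
    · exact h3
    · intro y hy
      rw [extendByZero_conj_of_mem L (classFun_mul (classFun_comp (classFun_of_comm hcomm δ) π)
        (irr_isClassFunction hη)) (by simpa using hy), extendByZero_coe]
    · intro y _ hy
      rw [extendByZero_apply]
      split_ifs with h4
      · simp only [Pi.mul_apply, δ]
        rw [if_neg, zero_mul]
        intro h5
        refine hy (Finset.mem_filter.2 ⟨Finset.mem_univ _, ?_⟩)
        show (y : H ⧸ Z) ∈ C
        rw [← hc]
        intro z hz
        obtain ⟨k, hk⟩ := hc' ⟨z, hz⟩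
        have h6 : (y : H ⧸ Z) * c * (y : H ⧸ Z)⁻¹ = c := by
          conv_lhs => rw [← hx]
          exact congrArg Subtype.val h5
        rw [← show ((c : H ⧸ Z)) ^ k = z from congrArg Subtype.val hk]
        exact ((Commute.zpow_right (mul_inv_eq_iff_eq_mul.1 h6) k).eq).symm
      · rfl
  have h3 : classInner ((fun x => δ (π x)) * η) η = classInner δ fun _ => 1 := by
    rw [hF]
    conv_rhs => rw [hδ]
    rw [inner_sum_left, inner_sum_left]
    refine Finset.sum_congr rfl fun γ _ => ?_
    rw [CF.Char.inner_smul_left, CF.Char.inner_smul_left, ← inner_comp_surjective π hπ γ,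
      ← E'.inner_mul_ext h.irrθ (irr_isCharacter hη) hext (irr_isCharacter (hγ γ)) char_const_one
      (fun n => by rw [hπ1, map_one]) fun _ => rfl]
    congr 2; funext x; simp
  rw [h2, CF.Char.inner_zero_left, inner_one_right] at h3
  simp [δ, eq_comm] at h3

section Sylow

variable [Finite H] {Z K : Subgroup H} [Z.Normal] [K.Normal] {χ : H → ℂ} {θ : Z → ℂ} {e : ℕ}

theorem FR.exists_index (h : FR (NormalEmb.sub Z) χ θ e) (hZK : Z ≤ K) (p : ℕ) [Fact p.Prime]
    (hT : (∃ P : Sylow p (H ⧸ K), IsCyclic P) ∨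
      ∃ φ : K → ℂ, IsCharacter K φ ∧ @indFun _ _ (Fintype.ofFinite H) K φ = χ) :
    ∃ M : Subgroup (H ⧸ K), M.index = p ^ (Nat.card (H ⧸ K)).factorization p := by
  classical
  let _ := Fintype.ofFinite H
  obtain ⟨S⟩ : Nonempty (Sylow p K) := inferInstance
  obtain ⟨P₀, hP₀⟩ := (S.isPGroup'.map K.subtype).exists_le_sylow
  have hS : (P₀ : Subgroup H) ⊓ K = (S : Subgroup K).map K.subtype := by
    rw [← S.is_maximal' (P₀.isPGroup'.comap_subtype (K := K)) (map_le_iff_le_comap.1 hP₀),
      map_comap_eq, range_subtype, inf_comm]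
  set P := (P₀ : Subgroup H) ⊔ Z
  set Q := P ⊓ K
  have hQ : Q = (S : Subgroup K).map K.subtype ⊔ Z := by
    rw [← hS]
    refine le_antisymm (fun x hx => ?_) (sup_le (inf_le_inf_right K le_sup_left)
      (le_inf le_sup_right hZK))
    obtain ⟨y, hy, z, hz, rfl⟩ := mem_sup_of_normal_right.1 hx.1
    exact mul_mem_sup ⟨hy, (mul_mem_cancel_right (hZK hz)).1 hx.2⟩ hz
  set N := normalizer (Q : Set H)
  have hNK : N ⊔ K = ⊤ := by
    refine eq_top_iff.2 ((Sylow.normalizer_sup_eq_top S).ge.trans (sup_le_sup_right ?_ _))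
    simp only [N, hQ]
    exact (le_inf le_rfl ((normalizer_eq_top Z).ge.trans' le_top)).trans
      (normalizer_inf_normalizer_le_normalizer_sup _ _)
  have hPN : P ≤ N := (le_inf le_normalizer ((normalizer_eq_top K).ge.trans' le_top)).trans
    inf_normalizer_le_normalizer_inf
  have hZP : Z ≤ P := le_sup_right
  have hZQ : Z ≤ Q := le_inf hZP hZK
  set E := NormalEmb.sub Z
  set EQ := E.restrict Q fun n => hZQ n.2
  set EP := E.restrict P fun n => hZP n.2
  set FN : NormalEmb Q N := NormalEmb.ofLe le_normalizer fun t ht n hn =>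
    (mem_normalizer_iff.1 ht n).1 hn
  set FP : NormalEmb Q P := FN.pull (inclusion hPN) (inclusion_injective hPN)
    (inclusion inf_le_left) fun _ => rfl
  have iP : ∃ k, EP.index = p ^ k := by
    rw [NormalEmb.index_restrict_sub, relIndex_sup_right]
    exact IsPGroup.index P₀.isPGroup' _
  have iP' : ¬ p ∣ P.index := fun hd => P₀.not_dvd_index (hd.trans (index_dvd_of_le le_sup_left))
  obtain ⟨ξ, e', h'⟩ := h.hall EP P.subtype P.subtype_injective (fun _ => rfl) (by
    obtain ⟨k, hk⟩ := iP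
    rw [hk, range_subtype]
    exact ((Nat.Prime.coprime_iff_not_dvd Fact.out).2 iP').pow_left k)
  obtain ⟨μ, hμ, hμθ⟩ := exists_irr_over EQ.ι EQ.inj h.irrθ
  have o1 : ∀ ν, IsIrrCharacter Q ν → (classInner (fun n => χ (Q.subtype n)) ν ≠ 0 ↔
      classInner (fun n => ξ (FP.ι n)) ν ≠ 0) := fun ν hν =>
    (h.over_iff EQ Q.subtype Q.subtype_injective (fun _ => rfl) (irr_isCharacter hν)).trans
      (h'.over_iff EQ FP.ι FP.inj (fun _ => rfl) (irr_isCharacter hν)).symm
  have o2 : classInner (fun n => χ (Q.subtype n)) μ ≠ 0 :=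
    (h.over_iff EQ Q.subtype Q.subtype_injective (fun _ => rfl) (irr_isCharacter hμ)).2 hμθ
  have o3 : ∀ ν, IsIrrCharacter Q ν → classInner (fun n => χ (Q.subtype n)) ν ≠ 0 →
      ∃ g, FP.cj μ g = ν := fun ν hν h1 => FP.exists_cj_eq h'.irr hμ hν ((o1 μ hμ).1 o2) ((o1 ν hν).1 h1)
  have i1 : (FN.inertia μ).index = (FP.inertia μ).index := by
    rw [← FN.card_image_cj, ← FP.card_image_cj]
    congr 1
    ext ν
    simp only [Finset.mem_image, Finset.mem_univ, true_and]
    refine ⟨?_, fun ⟨g, hg⟩ => ⟨inclusion hPN g, hg⟩⟩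
    rintro ⟨g, rfl⟩
    refine o3 _ (FN.cj_irr hμ g) ?_
    exact (FN.inner_res_cj (classFun_restrict (irr_isClassFunction h.irr) N) μ g).trans_ne o2
  have iQ : ¬ p ∣ Q.relIndex K := fun hd => S.not_dvd_index (hd.trans (by
    rw [hQ]
    refine (relIndex_dvd_of_le_left K le_sup_left).trans ?_
    rw [relIndex, subgroupOf, comap_map_eq_self_of_injective K.subtype_injective]))
  have iF : FP.index = p ^ (Nat.card (H ⧸ K)).factorization p := by
    rw [← (P₀.mapSurjective (QuotientGroup.mk'_surjective K)).card_eq_multiplicity,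
      Sylow.coe_mapSurjective, ← relIndex_ker, QuotientGroup.ker_mk', ← relIndex_sup_right,
      ← sup_eq_right.2 hZK, ← sup_assoc, sup_eq_right.2 hZK, relIndex_sup_right,
      ← inf_relIndex_left]
    exact congrArg index (inclusion_range (inf_le_left : P ⊓ K ≤ P))
  obtain ⟨a, m, ha, a1, a2, a3, a4⟩ := h'.exists_mult EQ FP.ι FP.inj (fun _ => rfl) hμ hμθ
  have i2 : (FP.inertia μ).index = FP.index := by
    have hr := FP.range_le_inertia (irr_isClassFunction hμ)
    rcases hT with ⟨P₁, hP₁⟩ | ⟨φ, φ1, φ2⟩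
    · set T := FP.inertia μ
      have hι := FP.ι_mem_inertia (irr_isClassFunction hμ)
      set FT := FP.restrict T hι
      let π : T →* H ⧸ K := (QuotientGroup.mk' K).comp (P.subtype.comp T.subtype)
      have hker : π.ker = FT.ι.range := by
        ext x
        refine ⟨fun hx => ⟨⟨x, x.1.2, (QuotientGroup.eq_one_iff _).1 hx⟩, rfl⟩, ?_⟩
        rintro ⟨n, rfl⟩
        exact (QuotientGroup.eq_one_iff _).2 n.2.2
      have hc : IsCyclic π.range := by
        have : IsCyclic (P₀.mapSurjective (QuotientGroup.mk'_surjective K)) :=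
          isCyclic_of_surjective (Sylow.equiv P₁ _) (MulEquiv.surjective _)
        refine Subgroup.isCyclic_of_le (H' := P₀.mapSurjective (QuotientGroup.mk'_surjective K)) ?_
        rintro _ ⟨x, rfl⟩
        have : P.map (QuotientGroup.mk' K) ≤ (P₀ : Subgroup H).map (QuotientGroup.mk' K) :=
          map_le_iff_le_comap.2 (sup_le (le_comap_map _ _) fun z hz => by
            rw [mem_comap, QuotientGroup.mk'_apply, (QuotientGroup.eq_one_iff z).2 (hZK hz)]
            exact one_mem _)
        exact this (mem_map_of_mem _ x.1.2)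
      obtain ⟨η, hη, hext⟩ := FT.exists_ext_of_isCyclic hμ (FP.invariant_restrict_inertia hι)
        (isCyclic_of_surjective ((QuotientGroup.quotientKerEquivRange π).symm.trans
          (QuotientGroup.quotientMulEquivOfEq hker)) (MulEquiv.surjective _))
      have b1 : classInner (fun n => η (FT.ι n)) μ = 1 := by
        rw [funext hext, inner_irr_self hμ]
      set ET := EP.restrict T fun n => hι (EQ.ι n)
      have b2 : (fun n => η (ET.ι n)) = (a : ℂ) • θ := a1 ▸ funext fun n => hext (EQ.ι n)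
      have b3 : classInner (fun n => η (ET.ι n)) θ ≠ 0 := by rwa [b2, ← a1]
      have b4 : classInner (fun x => ξ (T.subtype x)) η ≠ 0 :=
        (h'.over_iff ET T.subtype T.subtype_injective (fun _ => rfl) (irr_isCharacter hη)).2 b3
      obtain ⟨b5, b6⟩ := FP.corr_aux FT T.subtype T.subtype_injective (fun _ => rfl) hμ
        (by rw [range_subtype]) hη (by rw [b1]; exact one_ne_zero) h'.irr b4
      have b7 := h'.inner_eq ET T.subtype T.subtype_injective (fun _ => rfl) (irr_isCharacter hη)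
      rw [← inner_ind_right _ _ (irr_isClassFunction h'.irr), b5, inner_irr_self h'.irr, b2,
        CF.Char.inner_smul_left, inner_irr_self h.irrθ, mul_one, mul_one] at b7
      rw [b1, a3] at b6
      obtain rfl : m = 1 := by exact_mod_cast b6.symm
      have b8 : ET.index = EQ.index := by rw [mul_one] at a4; rw [a4]; exact_mod_cast b7
      have b9 := index_mul EP ET T.subtype T.subtype_injective
      rw [← index_mul EP EQ FP.ι FP.inj, b8, range_subtype] at b9
      exact Nat.eq_of_mul_eq_mul_left EQ.index_pos b9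
    · have φ3 := irr_of_irr_indFun K φ1 (φ2 ▸ h.irr)
      set EK := E.restrict K fun n => hZK n.2
      have c1 : classInner (fun x => χ (K.subtype x)) φ = 1 := by
        rw [← inner_ind_right _ _ (irr_isClassFunction h.irr), ind_subtype, φ2, inner_irr_self h.irr]
      have c0 := (h.over_iff EK K.subtype K.subtype_injective (fun _ => rfl) φ1).1
        (by rw [c1]; exact one_ne_zero)
      obtain ⟨f, m', -, c2, c3, c4, c5⟩ := h.exists_mult EK K.subtype K.subtype_injective
        (fun _ => rfl) φ3 c0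
      obtain rfl : m' = 1 := by rw [c1] at c4; exact_mod_cast c4.symm
      have hQK : Q ≤ K := inf_le_right
      obtain ⟨n, n1, n2, -⟩ := exists_nat_inner_self (char_comp φ1 (inclusion hQK))
      have c6 : φ 1 = (∑ ν, n ν : ℕ) * μ 1 := by
        have := congrFun n2 1
        simp only [map_one, Finset.sum_apply, Pi.smul_apply, smul_eq_mul] at this
        rw [this, Nat.cast_sum, Finset.sum_mul]
        refine Finset.sum_congr rfl fun ν _ => ?_
        by_cases h0 : n ν = 0
        · simp [h0]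
        obtain ⟨g, hg⟩ := o3 ν ν.2 (inner_comp_ne_zero_of_constituent (inclusion hQK)
          (char_comp (irr_isCharacter h.irr) K.subtype) φ3 (irr_isCharacter ν.2)
          (by rw [c1]; exact one_ne_zero) (by rw [n1]; exact_mod_cast h0))
        rw [← hg, FP.cj_apply, map_one]
      rw [c3, a2, ← mul_assoc] at c6
      have c7 : f = (∑ ν, n ν) * a := by
        exact_mod_cast mul_right_cancel₀ (irr_one_ne_zero h.irrθ) c6
      have c8 := FP.clifford_one h'.irr hμ ((o1 μ hμ).1 o2)
      have c9 : ξ 1 = e' * θ 1 := by simpa using congrFun h'.res 1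
      rw [a3, a2, c9, ← mul_assoc, ← mul_assoc] at c8
      have d1 : e' = m * (FP.inertia μ).index * a := by
        exact_mod_cast mul_right_cancel₀ (irr_one_ne_zero h.irrθ) c8
      have d2 := index_mul EK EQ (inclusion hQK) (inclusion_injective hQK)
      rw [inclusion_range] at d2
      have d3 := index_mul E EP P.subtype P.subtype_injective
      have d4 := index_mul EP EQ FP.ι FP.inj
      obtain ⟨u, hu⟩ : e' ∣ e := (Nat.pow_dvd_pow_iff two_ne_zero).1 (by
        rw [h'.sq, h.sq, ← d3]; exact dvd_mul_right _ _)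
      have d5 : Q.relIndex K = m * (u * ∑ ν, n ν) := by
        refine Nat.eq_of_mul_eq_mul_left EQ.index_pos ?_
        rw [← mul_assoc, a4, relIndex, d2, ← mul_one EK.index, c5, hu, c7]
        ring
      obtain ⟨k, hk⟩ := iP
      have d6 : m ∣ p ^ k := by
        rw [← hk, ← h'.sq]
        exact Dvd.dvd.pow ⟨_, d1.trans (mul_assoc _ _ _)⟩ two_ne_zero
      obtain ⟨j, -, rfl⟩ := (Nat.dvd_prime_pow Fact.out).1 d6
      obtain rfl : j = 0 := by
        by_contra hj
        exact iQ (d5 ▸ (dvd_pow_self p hj).mul_right _)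
      rw [pow_zero, mul_one] at a4
      rw [pow_zero, one_mul] at d1
      refine Nat.eq_of_mul_eq_mul_left EQ.index_pos ?_
      have d7 := h'.sq
      rw [show EQ.index * FP.index = EP.index from d4, ← d7, a4, pow_two, mul_assoc, mul_comm a, ← d1]
  set T := FN.inertia μ
  have hM : K.subgroupOf N ≤ T := by
    rw [← relIndex_eq_one]
    have j1 : T.relIndex (K.subgroupOf N) ∣ p ^ (Nat.card (H ⧸ K)).factorization p := by
      rw [← iF, ← i2, ← i1, ← relIndex_mul_index (le_sup_left : T ≤ T ⊔ K.subgroupOf N)]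
      refine Dvd.dvd.mul_right (dvd_of_eq ?_) _
      have k1 := relIndex_mul_relIndex (T ⊓ K.subgroupOf N) T _ inf_le_left
        (le_sup_left : T ≤ T ⊔ K.subgroupOf N)
      rw [← relIndex_mul_relIndex (T ⊓ K.subgroupOf N) _ _ inf_le_right
        (le_sup_right : _ ≤ T ⊔ K.subgroupOf N), inf_relIndex_left, inf_relIndex_right,
        relIndex_sup_right, mul_comm] at k1
      exact (Nat.eq_of_mul_eq_mul_right (Nat.pos_of_ne_zero index_ne_zero_of_finite) k1).symm
    obtain ⟨j, -, hj⟩ := (Nat.dvd_prime_pow Fact.out).1 j1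
    obtain rfl : j = 0 := by
      by_contra h0
      refine iQ ((dvd_pow_self p h0).trans (hj ▸ ?_))
      refine (relIndex_dvd_of_le_left _ (FN.range_le_inertia (irr_isClassFunction hμ))).trans ?_
      rw [show FN.ι.range = Q.subgroupOf N from inclusion_range le_normalizer, ← inf_subgroupOf_right K,
        relIndex_subgroupOf inf_le_right, ← relIndex_mul_relIndex Q (K ⊓ N) K
          (le_inf inf_le_right le_normalizer) inf_le_left]
      exact dvd_mul_right _ _
    simpa using hj
  refine ⟨T.map ((QuotientGroup.mk' K).comp N.subtype), ?_⟩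
  rw [index_map, ← MonoidHom.comap_ker, QuotientGroup.ker_mk', ← subgroupOf, sup_eq_left.2 hM, i1,
    i2, iF, MonoidHom.range_eq_map, ← map_map, ← MonoidHom.range_eq_map, range_subtype,
    index_map, QuotientGroup.ker_mk', hNK, index_top, QuotientGroup.range_mk', index_top, mul_one,
    mul_one]

end Sylow

end CF.CType
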